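import Mathlib
import Cfsg.Agent.Lib.Helper79.CS3.EndDefs
import Cfsg.Agent.S4134

/-!
# CS3 (= S4284), part [END]: packages [E5B] and [I6]
-/

set_option autoImplicit false

namespace Cfsg.Agent.Lib.Helper22.CS3

open Cfsg.Agent.Lib.Helper81.CS3 Cfsg.Agent.Lib.Helper79.CS3

universe u

/-- In the setting `S0`, `L` is a complement of `Q`: `|L| = |G : Q|`. -/
theorem s0_card {G : Type u} [Group G] [Finite G] {m n : ℕ} {Q L : Subgroup G}
    (hS : S0 G m n Q L) : Nat.card L = Q.index := by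
  have hcompl : Q.IsComplement' L := by
    haveI := hS.qn
    apply Subgroup.isComplement'_of_disjoint_and_mul_eq_univ
    · exact disjoint_iff.mpr hS.inf
    · rw [← Subgroup.normal_mul, hS.sup]; rfl
  have hcard : Nat.card Q * Nat.card L = Nat.card G := hcompl.card_mul_card
  have h2 := Q.card_mul_index
  have hQpos : 0 < Nat.card Q := Nat.card_pos
  exact Nat.eq_of_mul_eq_mul_left hQpos (hcard.trans h2.symm)

/-- [E5B] -/
theorem pkgE5b_of (hE4 : PkgE4.{u}) (hE5a : PkgE5a.{u}) (hE1 : PkgE1.{u}) (hB0 : PkgB0.{u}) :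
    PkgE5b.{u} := by
  intro G _ _ m n Q L hS
  have hm1 : 1 < m := hS.hyp.2.1
  have hidx : ∀ w : ↥L, (Subgroup.centralizer ({w} : Set ↥L)).index =
      (Subgroup.centralizer ({(w : G)} : Set G)).relIndex L := by
    intro w
    have : Subgroup.centralizer ({w} : Set ↥L) =
        (Subgroup.centralizer ({(w : G)} : Set G)).subgroupOf L := by
      ext x
      simp only [Subgroup.mem_centralizer_iff, Set.mem_singleton_iff, forall_eq,
        Subgroup.mem_subgroupOf]
      constructor
      · intro h; exact congrArg Subtype.val h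
      · intro h; exact Subtype.ext h
    rw [this]; rfl
  have h12 : ∀ w : ↥L, (Subgroup.centralizer ({w} : Set ↥L)).index = 1 ∨
      (Subgroup.centralizer ({w} : Set ↥L)).index = m := by
    intro w
    rw [hidx w]
    obtain ⟨h1, h2⟩ := hE5a m n Q L hS (w : G) w.2
    by_cases hw : (w : G) ∈ Subgroup.centralizer (Q : Set G)
    · rw [h1 hw]
      exact (hE1 m n Q L hS (w : G)).mp hw
    · right; exact (h2 hw).1
  have hex : ∃ w : ↥L, (Subgroup.centralizer ({w} : Set ↥L)).index = m := by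
    obtain ⟨hnot, -⟩ := hE4 m n Q L hS
    obtain ⟨w, hwL, hwQ⟩ := SetLike.not_le_iff_exists.mp hnot
    refine ⟨⟨w, hwL⟩, ?_⟩
    rw [hidx]
    exact ((hE5a m n Q L hS w hwL).2 hwQ).1
  obtain ⟨p, hp, a, hma, -⟩ := Cfsg.Agent.S4134.result (G := ↥L) m hm1 h12 hex
  have hpp : p.Prime := hp.out
  refine ⟨p, hpp, ⟨a, hma⟩, ?_⟩
  have hLidx : Nat.card L = Q.index := s0_card hS
  have hLpow : Nat.card L = p ^ (Nat.card L).primeFactorsList.length := by
    apply Nat.eq_prime_pow_of_unique_prime_dvd Nat.card_pos.ne'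
    intro r hr hrL
    have hrG : r ∣ Nat.card G := hrL.trans (Subgroup.card_subgroup_dvd_card L)
    have hrmn : r ∣ m * n := hB0 m n hS.hyp r hr hrG
    have hrn : ¬ r ∣ n := by
      intro h
      have h1 : r ∣ Nat.gcd Q.index n := Nat.dvd_gcd (hLidx ▸ hrL) h
      have h2 : Nat.gcd Q.index n = 1 := hS.qi
      rw [h2] at h1
      exact hr.one_lt.ne' (Nat.dvd_one.mp h1)
    have hrm : r ∣ m := (hr.dvd_mul.mp hrmn).resolve_right hrn
    rw [hma] at hrm
    exact (Nat.prime_dvd_prime_iff_eq hr hpp).mp (hr.dvd_of_dvd_pow hrm)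
  exact IsPGroup.of_card hLpow

/-- [I6] -/
theorem pkgI6_of (hI1 : PkgI1.{u}) : PkgI6.{u} := by
  intro G _ _ m n Q P p hS hI hmp
  obtain ⟨hrel, hab, -, -⟩ := hI1 m n Q P p hS hI
  have hS0 := hS.s0
  haveI := hS0.qn
  have hQC : Q ≤ Subgroup.centralizer (Q : Set G) := by
    intro x hx
    rw [Subgroup.mem_centralizer_iff]
    intro y hy
    exact hS0.qc y hy x hx
  have hPidx : Nat.card P = Q.index := s0_card hS0
  refine ⟨⟨?_, ?_⟩, ?_⟩
  · -- index of the centralizer
    have hsup : Subgroup.centralizer (Q : Set G) ⊔ P = ⊤ := by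
      apply top_unique
      rw [← hS0.sup]
      exact sup_le_sup_right hQC P
    have h1 : (Subgroup.centralizer (Q : Set G)).relIndex (Subgroup.centralizer (Q : Set G) ⊔ P) =
        (Subgroup.centralizer (Q : Set G)).relIndex P := Subgroup.relIndex_sup_left P _
    rw [hsup, Subgroup.relIndex_top_right] at h1
    rw [h1, hrel]
  · -- the centralizer is abelian
    rw [isMulCommutative_iff]
    have hdec : ∀ c ∈ Subgroup.centralizer (Q : Set G), ∃ q ∈ Q, ∃ l ∈ P,
        l ∈ Subgroup.centralizer (Q : Set G) ∧ c = q * l := by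
      intro c hc
      have hc' : c ∈ ((Q ⊔ P : Subgroup G) : Set G) := by rw [hS0.sup]; trivial
      rw [Subgroup.normal_mul] at hc'
      obtain ⟨q, hq, l, hl, e⟩ := Set.mem_mul.mp hc'
      refine ⟨q, hq, l, hl, ?_, e.symm⟩
      have : l = q⁻¹ * c := by rw [← e]; group
      rw [this]
      exact Subgroup.mul_mem _ (Subgroup.inv_mem _ (hQC hq)) hc
    rintro ⟨x, hx⟩ ⟨y, hy⟩
    apply Subtype.ext
    show x * y = y * x
    obtain ⟨q, hq, l, hl, hlC, rfl⟩ := hdec x hx
    obtain ⟨q', hq', l', hl', hlC', rfl⟩ := hdec y hy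
    have c1 : q * q' = q' * q := hS0.qc q hq q' hq'
    have c2 : l * l' = l' * l := hab l hl hlC l' hl' hlC'
    have c3 : q' * l = l * q' := (Subgroup.mem_centralizer_iff.mp hlC) q' hq'
    have c4 : q * l' = l' * q := (Subgroup.mem_centralizer_iff.mp hlC') q hq
    calc q * l * (q' * l') = q * (l * q') * l' := by group
      _ = q * (q' * l) * l' := by rw [c3]
      _ = (q * q') * (l * l') := by group
      _ = (q' * q) * (l' * l) := by rw [c1, c2]
      _ = q' * (q * l') * l := by group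
      _ = q' * (l' * q) * l := by rw [c4]
      _ = q' * l' * (q * l) := by group
  · -- |G : Q| is a power of m
    haveI : Fact p.Prime := ⟨hS.pp⟩
    obtain ⟨k, hk⟩ := IsPGroup.iff_card.mp hS.pg
    exact ⟨k, by rw [← hPidx, hk, hmp]⟩

end Cfsg.Agent.Lib.Helper22.CS3
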